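import Mathlib
import Cfsg.Agent.Lib.OrthSyl.Core

/-!
# The wreath subgroup `GL(2, F) ≀ S_m` of `GL(2m, F)`
-/

set_option autoImplicit false
set_option linter.unusedSectionVars false

namespace Cfsg.Agent.Lib.SLSyl.Block

open Matrix Equiv Cfsg.Agent.Lib.OrthSyl.Core
open scoped MatrixGroups

universe u

variable {F : Type u} [Field F] {m : ℕ}

/-- The index type. -/
abbrev Idx (m : ℕ) : Type := Fin 2 × Fin m

/-- The block diagonal homomorphism. -/
def bHom (m : ℕ) (F : Type u) [Field F] : (Fin m → GL (Fin 2) F) →* GL (Idx m) F where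
  toFun f := ⟨blockDiagonal fun i => (f i : Matrix (Fin 2) (Fin 2) F),
    blockDiagonal fun i => (((f i)⁻¹ : GL (Fin 2) F) : Matrix (Fin 2) (Fin 2) F), by
      rw [← blockDiagonal_mul, ← blockDiagonal_one]
      congr 1
      funext i
      change ((f i * (f i)⁻¹ : GL (Fin 2) F) : Matrix (Fin 2) (Fin 2) F) = 1
      rw [mul_inv_cancel]
      rfl, by
      rw [← blockDiagonal_mul, ← blockDiagonal_one]
      congr 1
      funext i
      change (((f i)⁻¹ * f i : GL (Fin 2) F) : Matrix (Fin 2) (Fin 2) F) = 1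
      rw [inv_mul_cancel]
      rfl⟩
  map_one' := by
    apply Units.ext
    change blockDiagonal (fun _ => (1 : Matrix (Fin 2) (Fin 2) F)) = 1
    exact blockDiagonal_one
  map_mul' a b := by
    apply Units.ext
    change blockDiagonal (fun i => ((a i * b i : GL (Fin 2) F) : Matrix (Fin 2) (Fin 2) F)) =
      blockDiagonal (fun i => (a i : Matrix (Fin 2) (Fin 2) F)) *
        blockDiagonal (fun i => (b i : Matrix (Fin 2) (Fin 2) F))
    rw [← blockDiagonal_mul]
    rfl

theorem bHom_coe (f : Fin m → GL (Fin 2) F) :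
    ((bHom m F f : GL (Idx m) F) : Matrix (Idx m) (Idx m) F) =
      blockDiagonal fun i => (f i : Matrix (Fin 2) (Fin 2) F) := rfl

theorem det_bHom (f : Fin m → GL (Fin 2) F) :
    Matrix.GeneralLinearGroup.det (bHom m F f) = ∏ i, Matrix.GeneralLinearGroup.det (f i) := by
  apply Units.ext
  rw [Units.coe_prod]
  change (blockDiagonal fun i => (f i : Matrix (Fin 2) (Fin 2) F)).det = ∏ i, ((f i : Matrix (Fin 2) (Fin 2) F)).det
  exact det_blockDiagonal _

/-- The permutation of the index set. -/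
def permS (σ : Perm (Fin m)) : Perm (Idx m) := prodCongrRight fun _ => σ⁻¹

theorem permS_apply (σ : Perm (Fin m)) (x : Idx m) : permS σ x = (x.1, σ⁻¹ x.2) := rfl

theorem permS_symm_apply (σ : Perm (Fin m)) (x : Idx m) : (permS σ).symm x = (x.1, σ x.2) := rfl

theorem permS_mul (σ τ : Perm (Fin m)) : permS (σ * τ) = permS τ * permS σ := by
  ext x <;> simp [permS_apply, Perm.mul_apply]

theorem permS_one : permS (1 : Perm (Fin m)) = 1 := by
  ext x <;> simp [permS_apply]

/-- The permutation homomorphism. -/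
def pHom (m : ℕ) (F : Type u) [Field F] : Perm (Fin m) →* GL (Idx m) F where
  toFun σ := ⟨(permS σ).permMatrix F, (permS σ⁻¹).permMatrix F, by
      rw [← Matrix.permMatrix_mul, ← permS_mul, mul_inv_cancel, permS_one, Matrix.permMatrix_one], by
      rw [← Matrix.permMatrix_mul, ← permS_mul, inv_mul_cancel, permS_one, Matrix.permMatrix_one]⟩
  map_one' := by
    apply Units.ext
    change (permS (1 : Perm (Fin m))).permMatrix F = 1
    rw [permS_one, Matrix.permMatrix_one]
  map_mul' a b := by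
    apply Units.ext
    change (permS (a * b)).permMatrix F = (permS a).permMatrix F * (permS b).permMatrix F
    rw [permS_mul, Matrix.permMatrix_mul]

theorem pHom_coe (σ : Perm (Fin m)) :
    ((pHom m F σ : GL (Idx m) F) : Matrix (Idx m) (Idx m) F) = (permS σ).permMatrix F := rfl

theorem det_pHom (σ : Perm (Fin m)) : Matrix.GeneralLinearGroup.det (pHom m F σ) = 1 := by
  apply Units.ext
  change ((permS σ).permMatrix F).det = 1
  rw [Matrix.det_permutation, permS, Equiv.Perm.sign_prodCongrRight]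
  simp only [Finset.prod_const, Finset.card_univ, Fintype.card_fin]
  have h : (Perm.sign σ⁻¹) ^ 2 = 1 := by
    rw [pow_two]
    exact Int.units_mul_self _
  rw [h]
  simp

theorem mul_entry (f : Fin m → GL (Fin 2) F) (σ : Perm (Fin m)) (x y : Idx m) :
    ((bHom m F f * pHom m F σ : GL (Idx m) F) : Matrix (Idx m) (Idx m) F) x y =
      if x.2 = σ y.2 then (f x.2 : Matrix (Fin 2) (Fin 2) F) x.1 y.1 else 0 := by
  rw [Units.val_mul, bHom_coe, pHom_coe, Equiv.Perm.permMatrix, PEquiv.mul_toMatrix_toPEquiv,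
    submatrix_apply, blockDiagonal_apply]
  rfl

theorem isWreath_bHom (f : Fin m → GL (Fin 2) F) (σ : Perm (Fin m)) :
    pHom m F σ * bHom m F f = bHom m F (fun i => f (σ⁻¹ i)) * pHom m F σ := by
  apply Units.ext
  ext x y
  rw [mul_entry, Units.val_mul, bHom_coe, pHom_coe, Equiv.Perm.permMatrix, PEquiv.toMatrix_toPEquiv_mul,
    submatrix_apply, blockDiagonal_apply]
  change (if σ⁻¹ x.2 = y.2 then (f (σ⁻¹ x.2) : Matrix (Fin 2) (Fin 2) F) x.1 y.1 else 0) =
    if x.2 = σ y.2 then (f (σ⁻¹ x.2) : Matrix (Fin 2) (Fin 2) F) x.1 y.1 else 0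
  have hiff : σ⁻¹ x.2 = y.2 ↔ x.2 = σ y.2 := Perm.inv_eq_iff_eq
  by_cases h : σ⁻¹ x.2 = y.2
  · rw [if_pos (hiff.1 h), if_pos h]
  · rw [if_neg (fun h' => h (hiff.2 h')), if_neg h]

/-- Restriction of the base to a subgroup. -/
def cOf (D : Subgroup (GL (Fin 2) F)) : (Fin m → D) × PUnit.{1} →* GL (Idx m) F :=
  (bHom m F).comp ((MonoidHom.compLeft D.subtype (Fin m)).comp (MonoidHom.fst _ _))

theorem cOf_apply (D : Subgroup (GL (Fin 2) F)) (n : (Fin m → D) × PUnit.{1}) :
    cOf D n = bHom m F (fun i => ((n.1 i : D) : GL (Fin 2) F)) := rfl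

theorem isWreath_cOf (D : Subgroup (GL (Fin 2) F)) : IsWreath (cOf (m := m) D) (pHom m F) := by
  intro σ n
  rw [mul_inv_eq_iff_eq_mul, cOf_apply, isWreath_bHom]
  rfl

theorem det_cOf (D : Subgroup (GL (Fin 2) F)) (n : (Fin m → D) × PUnit.{1}) :
    Matrix.GeneralLinearGroup.det (cOf D n) =
      ∏ i, Matrix.GeneralLinearGroup.det ((n.1 i : D) : GL (Fin 2) F) := by
  rw [cOf_apply, det_bHom]

theorem injective_mul (D : Subgroup (GL (Fin 2) F)) (T : Subgroup (Perm (Fin m))) :
    Function.Injective fun p : ((Fin m → D) × PUnit.{1}) × T =>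
      cOf (m := m) D p.1 * pHom m F p.2 := by
  rintro ⟨⟨f, ⟨⟩⟩, t⟩ ⟨⟨f', ⟨⟩⟩, t'⟩ h
  have h1 : bHom m F (fun i => ((f i : D) : GL (Fin 2) F)) * pHom m F (t : Perm (Fin m)) =
      bHom m F (fun i => ((f' i : D) : GL (Fin 2) F)) * pHom m F (t' : Perm (Fin m)) := h
  have h2 : ∀ x y : Idx m, (if x.2 = (t : Perm (Fin m)) y.2 then
        (((f x.2 : D) : GL (Fin 2) F) : Matrix (Fin 2) (Fin 2) F) x.1 y.1 else 0) =
      (if x.2 = (t' : Perm (Fin m)) y.2 then
        (((f' x.2 : D) : GL (Fin 2) F) : Matrix (Fin 2) (Fin 2) F) x.1 y.1 else 0) := by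
    intro x y
    rw [← mul_entry (fun i => ((f i : D) : GL (Fin 2) F)), ← mul_entry (fun i => ((f' i : D) : GL (Fin 2) F)), h1]
  have hne : ∀ g : GL (Fin 2) F, ∃ a b : Fin 2, (g : Matrix (Fin 2) (Fin 2) F) a b ≠ 0 := by
    intro g
    by_contra hcon
    push Not at hcon
    have h3 : (g : Matrix (Fin 2) (Fin 2) F) = 0 := by
      ext a b
      exact hcon a b
    exact g.ne_zero h3
  have ht : t = t' := by
    apply Subtype.ext
    ext j
    obtain ⟨a, b, hab⟩ := hne ((f ((t : Perm (Fin m)) j) : D) : GL (Fin 2) F)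
    have h3 := h2 (a, (t : Perm (Fin m)) j) (b, j)
    simp only [if_true] at h3
    by_contra hcon
    rw [if_neg (fun h' => hcon (by rw [h']))] at h3
    exact hab h3
  subst ht
  have hf : f = f' := by
    funext i
    apply Subtype.ext
    apply Units.ext
    ext a b
    have h3 := h2 (a, i) (b, (t : Perm (Fin m))⁻¹ i)
    simpa using h3
  rw [hf]

end Cfsg.Agent.Lib.SLSyl.Block
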