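import Mathlib
import Cfsg.Agent.Lib.OrthSyl.Core
import Cfsg.Agent.Lib.OrthSyl.Whole

/-!
# Abstract theorem for Sylow `2`-subgroups of a kernel in a wreath-type group
-/

set_option autoImplicit false

namespace Cfsg.Agent.Lib.SLSyl.Core

open Equiv Cfsg.Agent.Lib.OrthSyl.Core
open scoped commutatorElement

/-- The property of the statements: every Sylow `2`-subgroup `P` of `G` has `x² ∈ P'`. -/
def SqSyl (G : Type*) [Group G] : Prop :=
  ∀ (P : Sylow 2 G) (x : (P : Subgroup G)), x ^ 2 ∈ commutator (P : Subgroup G)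

theorem SqSyl.of_mulEquiv {G H : Type*} [Group G] [Group H] [Finite H] (e : G ≃* H)
    (h : SqSyl G) : SqSyl H := by
  haveI : Fact (Nat.Prime 2) := ⟨Nat.prime_two⟩
  haveI : Finite G := Finite.of_equiv H e.symm.toEquiv
  intro P x
  let f : H →* G := e.symm.toMonoidHom
  have hf : Function.Surjective f := e.symm.surjective
  let Q : Sylow 2 G := P.mapSurjective hf
  have hQ : (Q : Subgroup G) = (P : Subgroup H).map f := Sylow.coe_mapSurjective hf P
  have hx : f x.1 ∈ (Q : Subgroup G) := by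
    rw [hQ]
    exact ⟨x.1, x.2, rfl⟩
  have h2 := sq_mem_commutator_of_subtype (h Q) (f x.1) hx
  rw [hQ, ← Subgroup.map_commutator] at h2
  obtain ⟨y, hy, hy2⟩ := h2
  have hy3 : y = x.1 ^ 2 := e.symm.injective (by
    have : f y = f (x.1 ^ 2) := by rw [hy2, map_pow]
    exact this)
  rw [← Subgroup.map_subtype_commutator] at hy
  obtain ⟨z, hz, hz2⟩ := hy
  have hz3 : z = x ^ 2 := by
    apply Subtype.ext
    change (P : Subgroup H).subtype z = x.1 ^ 2
    rw [hz2, hy3]
  rwa [hz3] at hz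

variable {G : Type*} [Group G]
variable {D E I : Type*} [Group D] [Group E] [Fintype I] [DecidableEq I]

/-- The abstract reduction to the base group, for a normal subgroup `Ω` which contains the permutations. -/
theorem main_ker [Finite G] [Finite D] [Finite E] {c : (I → D) × E →* G} {π : Perm I →* G}
    (hw : IsWreath c π) (T : Subgroup (Perm I)) (hTsq : ∀ x : T, x ^ 2 ∈ commutator T)
    (hinj : Function.Injective fun p : ((I → D) × E) × T => c p.1 * π p.2)
    (hcount : Nat.card D ^ Fintype.card I * Nat.card E * Nat.card T =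
      2 ^ (Nat.card G).factorization 2)
    (Ω : Subgroup G) [Ω.Normal] (hπΩ : ∀ σ, π σ ∈ Ω)
    (hb : ∀ n, c n ∈ Ω → (c n) ^ 2 ∈ ⁅wreathSub hw T ⊓ Ω, wreathSub hw T ⊓ Ω⁆) : SqSyl Ω := by
  haveI : Fact (Nat.Prime 2) := ⟨Nat.prime_two⟩
  let S : Sylow 2 G := Sylow.ofCard (wreathSub hw T) (by rw [card_wreathSub hw T hinj, hcount])
  have hS : (S : Subgroup G) = wreathSub hw T := rfl
  intro P' x
  refine sq_of_sylow S Ω ?_ P' x
  rw [hS]
  rintro _ ⟨⟨n, t, ht, rfl⟩, hΩ⟩
  have hcΩ : c n ∈ Ω := by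
    have := Ω.mul_mem hΩ (Ω.inv_mem (hπΩ t))
    simpa using this
  refine sq_mul_mem (P := wreathSub hw T ⊓ Ω) ⟨⟨n, 1, T.one_mem, by simp⟩, hcΩ⟩
    ⟨⟨1, t, ht, by simp⟩, hπΩ t⟩ (hb n hcΩ) ?_
  rw [← map_pow]
  have h1 : ⁅T.map π, T.map π⁆ ≤ ⁅wreathSub hw T ⊓ Ω, wreathSub hw T ⊓ Ω⁆ := by
    apply Subgroup.commutator_mono <;>
    · rintro _ ⟨s, hs, rfl⟩
      exact ⟨⟨1, s, hs, by simp⟩, hπΩ s⟩
  apply h1
  rw [← Subgroup.map_commutator]
  exact ⟨_, sq_mem_commutator_of_subtype hTsq t ht, rfl⟩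

section Base

variable {Z : Type*} [CommGroup Z]

/-- The element `u_{ij}(g)`. -/
def uElt (i j : I) (g : D) : I → D := Pi.mulSingle i g * Pi.mulSingle j g⁻¹

theorem map_mulSingle_apply (δ : D →* Z) (i : I) (g : D) (k : I) :
    δ ((Pi.mulSingle i g : I → D) k) = (Pi.mulSingle i (δ g) : I → Z) k := by
  simp only [Pi.mulSingle_apply]
  split_ifs <;> simp

theorem prod_uElt (δ : D →* Z) {i j : I} (hij : i ≠ j) (g : D) : ∏ k, δ (uElt i j g k) = 1 := by
  have h : ∀ k, δ (uElt i j g k) = (Pi.mulSingle i (δ g) : I → Z) k * (Pi.mulSingle j (δ g)⁻¹ : I → Z) k := by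
    intro k
    simp only [uElt, Pi.mul_apply, map_mul, map_mulSingle_apply, map_inv]
  simp only [h, Finset.prod_mul_distrib, Finset.prod_pi_mulSingle', Finset.mem_univ, if_true]
  simp

theorem prod_mulSingle (δ : D →* Z) (i : I) (g : D) :
    ∏ k, δ ((Pi.mulSingle i g : I → D) k) = δ g := by
  simp only [map_mulSingle_apply, Finset.prod_pi_mulSingle', Finset.mem_univ, if_true]

/-- The squares of the base group. -/
theorem sq_base_ker (P : Subgroup G) {c : (I → D) × PUnit.{1} →* G} (δ : D →* Z)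
    (hmem : ∀ f : I → D, ∏ i, δ (f i) = 1 → c (f, 1) ∈ P)
    (hQ : ∀ x : D, δ x = 1 → x ^ 2 ∈ ⁅δ.ker, δ.ker⁆)
    (hu : ∀ i j, i ≠ j → ∀ g : D, (c (uElt i j g, 1)) ^ 2 ∈ ⁅P, P⁆)
    (f : I → D) (hf : ∏ i, δ (f i) = 1) : (c (f, 1)) ^ 2 ∈ ⁅P, P⁆ := by
  classical
  rcases isEmpty_or_nonempty I with hI | ⟨⟨i₀⟩⟩
  · have : (f, (1 : PUnit.{1})) = 1 := by
      ext i
      · exact hI.elim i
    rw [this, map_one, one_pow]
    exact one_mem _
  have key : ∀ s : Finset I, i₀ ∉ s → ∀ f : I → D, (∀ i, i ≠ i₀ → i ∉ s → f i = 1) →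
      ∏ i, δ (f i) = 1 → (c (f, 1)) ^ 2 ∈ ⁅P, P⁆ := by
    intro s
    induction s using Finset.induction_on with
    | empty =>
      intro _ f hf0 hf1
      have hfe : f = Pi.mulSingle i₀ (f i₀) := by
        funext i
        by_cases h : i = i₀
        · subst h
          simp
        · rw [hf0 i h (by simp), Pi.mulSingle_eq_of_ne h]
      have hp : δ (f i₀) = 1 := by
        rw [← prod_mulSingle δ i₀ (f i₀), ← hfe]
        exact hf1
      let ψ : D →* G := c.comp ((MonoidHom.inl _ _).comp (MonoidHom.mulSingle (fun _ => D) i₀))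
      have hψ : ∀ u, ψ u = c ((Pi.mulSingle i₀ u : I → D), (1 : PUnit.{1})) := fun u => rfl
      have hle : (⁅δ.ker, δ.ker⁆ : Subgroup D).map ψ ≤ ⁅P, P⁆ := by
        rw [Subgroup.map_commutator]
        apply Subgroup.commutator_mono <;>
        · rintro _ ⟨q, hq, rfl⟩
          rw [hψ]
          apply hmem
          rw [prod_mulSingle]
          exact hq
      have h1 : (c (f, 1)) ^ 2 = ψ (f i₀ ^ 2) := by
        rw [map_pow, hψ, ← hfe]
      rw [h1]
      exact hle ⟨_, hQ _ hp, rfl⟩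
    | insert a s ha ih =>
      intro hi₀ f hf0 hf1
      have hai : a ≠ i₀ := fun h => hi₀ (by rw [← h]; simp)
      have hi₀' : i₀ ∉ s := fun h => hi₀ (Finset.mem_insert_of_mem h)
      set u := uElt a i₀ (f a) with hu'
      set f' : I → D := u⁻¹ * f with hf'
      have hfe : f = u * f' := by
        rw [hf']
        simp
      have hprod : ∀ x y : I → D, ∏ i, δ ((x * y) i) = (∏ i, δ (x i)) * ∏ i, δ (y i) := by
        intro x y
        simp [Finset.prod_mul_distrib]
      have hprodinv : ∀ x : I → D, ∏ i, δ ((x⁻¹) i) = (∏ i, δ (x i))⁻¹ := by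
        intro x
        simp [Finset.prod_inv_distrib]
      have hup : ∏ i, δ (u i) = 1 := prod_uElt δ hai _
      have hf'p : ∏ i, δ (f' i) = 1 := by
        rw [hf', hprod, hprodinv, hup, hf1]
        simp
      have hcf : c (f, 1) = c (u, 1) * c (f', 1) := by
        rw [← map_mul]
        congr 1
        rw [hfe]
        rfl
      rw [hcf]
      refine sq_mul_mem (hmem _ hup) (hmem _ hf'p) (hu a i₀ hai _) (ih hi₀' f' ?_ hf'p)
      intro i hne hi
      by_cases hia : i = a
      · subst hia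
        rw [hf']
        simp [hu', uElt, hne]
      · have hne' : i ∉ insert a s := by
          simp [hia, hi]
        rw [hf']
        simp [hu', uElt, hne, hia, hf0 i hne hne']
  exact key (Finset.univ.erase i₀) (by simp) f (by
    intro i h1 h2
    exact absurd (Finset.mem_erase.2 ⟨h1, Finset.mem_univ _⟩) h2) hf

/-- `u_{ij}(g)` squared by a swap. -/
theorem hu_of_swap (P : Subgroup G) {c : (I → D) × PUnit.{1} →* G} {π : Perm I →* G}
    (hw : IsWreath c π) {i j : I} (hij : i ≠ j) (g : D) (hmem : c (uElt i j g, 1) ∈ P)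
    {σ : Perm I} (h1 : σ i = j) (h2 : σ j = i) (hσ : π σ ∈ P) :
    (c (uElt i j g, 1)) ^ 2 ∈ ⁅P, P⁆ := by
  have h3 : (c (uElt i j g, 1)) ^ 2 = ⁅c (uElt i j g, 1), π σ⁆ := by
    rw [commutatorElement_def, pow_two, mul_assoc, mul_assoc, ← mul_assoc (π σ)]
    congr 1
    rw [← map_inv, hw]
    congr 1
    ext k
    · have h4 : σ⁻¹ i = j := by
        rw [Perm.inv_eq_iff_eq]
        exact h2.symm
      have h5 : σ⁻¹ j = i := by
        rw [Perm.inv_eq_iff_eq]
        exact h1.symm
      by_cases hk1 : k = i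
      · subst hk1
        simp [uElt, h4, hij, hij.symm]
      · by_cases hk2 : k = j
        · subst hk2
          simp [uElt, h5, hij, hij.symm]
        · have h6 : σ⁻¹ k ≠ i := by
            intro h
            apply hk2
            rw [Perm.inv_eq_iff_eq] at h
            rw [h, h1]
          have h7 : σ⁻¹ k ≠ j := by
            intro h
            apply hk1
            rw [Perm.inv_eq_iff_eq] at h
            rw [h, h2]
          have h6' : σ.symm k ≠ i := h6
          have h7' : σ.symm k ≠ j := h7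
          simp [uElt, h6', h7', hk1, hk2]
  rw [h3]
  exact Subgroup.commutator_mem_commutator hmem hσ

/-- `u_{ij}(g)` squared, if all squares lie in `[K, D]`. -/
theorem hu_of_comm (P : Subgroup G) {c : (I → D) × PUnit.{1} →* G} (δ : D →* Z)
    (hmem : ∀ f : I → D, ∏ i, δ (f i) = 1 → c (f, 1) ∈ P)
    (h : ∀ g : D, g ^ 2 ∈ ⁅δ.ker, (⊤ : Subgroup D)⁆) {i j : I} (hij : i ≠ j) (g : D) :
    (c (uElt i j g, 1)) ^ 2 ∈ ⁅P, P⁆ := by
  classical
  have hs : ∀ (a b : I), a ≠ b → ∀ w ∈ (⁅δ.ker, (⊤ : Subgroup D)⁆ : Subgroup D),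
      c ((Pi.mulSingle a w : I → D), (1 : PUnit.{1})) ∈ ⁅P, P⁆ := by
    intro a b hab
    let ψ : D →* G := c.comp ((MonoidHom.inl _ _).comp (MonoidHom.mulSingle (fun _ => D) a))
    have hψ : ∀ u, ψ u = c ((Pi.mulSingle a u : I → D), (1 : PUnit.{1})) := fun u => rfl
    have hle : (⁅δ.ker, (⊤ : Subgroup D)⁆ : Subgroup D) ≤ (⁅P, P⁆ : Subgroup G).comap ψ := by
      rw [Subgroup.commutator_le]
      intro q hq x _
      rw [Subgroup.mem_comap, hψ]
      have h1 : ((Pi.mulSingle a ⁅q, x⁆ : I → D), (1 : PUnit.{1})) =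
          ⁅((Pi.mulSingle a q : I → D), (1 : PUnit.{1})), (uElt a b x, (1 : PUnit.{1}))⁆ := by
        refine Prod.ext ?_ rfl
        funext k
        simp only [commutatorElement_def, Prod.fst_mul, Prod.fst_inv, Pi.mul_apply, Pi.inv_apply, uElt,
          Pi.mulSingle_apply]
        by_cases hk1 : k = a
        · subst hk1
          simp [hab]
        · by_cases hk2 : k = b
          · subst hk2
            simp [hk1]
          · simp [hk1, hk2]
      rw [h1, map_commutatorElement]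
      refine Subgroup.commutator_mem_commutator (hmem _ ?_) (hmem _ (prod_uElt δ hab _))
      rw [prod_mulSingle]
      exact hq
    intro w hw
    exact hle hw
  have h1 : (c (uElt i j g, 1)) ^ 2 =
      c ((Pi.mulSingle i (g ^ 2) : I → D), (1 : PUnit.{1})) *
        c ((Pi.mulSingle j (g⁻¹ ^ 2) : I → D), (1 : PUnit.{1})) := by
    rw [← map_pow, ← map_mul]
    congr 1
    refine Prod.ext ?_ rfl
    change (uElt i j g) ^ 2 = (Pi.mulSingle i (g ^ 2) : I → D) * Pi.mulSingle j (g⁻¹ ^ 2)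
    funext k
    simp only [uElt, Pi.pow_apply, Pi.mul_apply, Pi.mulSingle_apply]
    by_cases hk1 : k = i
    · subst hk1
      simp [hij]
    · by_cases hk2 : k = j
      · subst hk2
        simp [hk1]
      · simp [hk1, hk2]
  rw [h1]
  exact mul_mem (hs i j hij _ (h g)) (hs j i hij.symm _ (h g⁻¹))

end Base

end Cfsg.Agent.Lib.SLSyl.Core
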