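import Mathlib
import Cfsg.Agent.Lib.SLSyl.Core
import Cfsg.Agent.Lib.SLSyl.Block
import Cfsg.Agent.Lib.SLSyl.Count
import Cfsg.Agent.Lib.Linalg.Basic
import Cfsg.Agent.S4623
import Cfsg.Agent.S4624

/-!
# Sylow `2`-subgroups of `SL_{2m}(q)`
-/

set_option autoImplicit false
set_option linter.unusedSectionVars false

namespace Cfsg.Agent.Lib.SLSyl.Even

open Matrix Equiv Cfsg.Agent.Lib.OrthSyl.Core Cfsg.Agent.Lib.SLSyl.Core Cfsg.Agent.Lib.SLSyl.Block
open Cfsg.Agent.Lib.SLSyl.Count Cfsg.Agent.Lib.OrthSyl.Count Cfsg.Agent.Lib.Linalg.Basic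
open scoped MatrixGroups commutatorElement

universe u

variable {F : Type u} [Field F]

/-- The kernel of the determinant. -/
abbrev detK (ι : Type) [Fintype ι] [DecidableEq ι] (F : Type u) [Field F] : Subgroup (GL ι F) :=
  (Matrix.GeneralLinearGroup.det : GL ι F →* Fˣ).ker

section Reindex

variable {ι κ : Type} [Fintype ι] [DecidableEq ι] [Fintype κ] [DecidableEq κ]

/-- Reindexing `GL`. -/
noncomputable def glReindex (e : ι ≃ κ) : GL ι F ≃* GL κ F :=
  Units.mapEquiv (Matrix.reindexAlgEquiv F F e).toMulEquiv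

/-- Reindexing `SL`. -/
noncomputable def slReindex (e : ι ≃ κ) : SpecialLinearGroup ι F ≃* SpecialLinearGroup κ F where
  toFun g := ⟨Matrix.reindexAlgEquiv F F e g.1, by
    rw [Matrix.det_reindexAlgEquiv]
    exact g.2⟩
  invFun g := ⟨(Matrix.reindexAlgEquiv F F e).symm g.1, by
    rw [Matrix.symm_reindexAlgEquiv, Matrix.det_reindexAlgEquiv]
    exact g.2⟩
  left_inv g := by
    apply Subtype.ext
    exact (Matrix.reindexAlgEquiv F F e).symm_apply_apply g.1
  right_inv g := by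
    apply Subtype.ext
    exact (Matrix.reindexAlgEquiv F F e).apply_symm_apply g.1
  map_mul' a b := by
    apply Subtype.ext
    exact map_mul (Matrix.reindexAlgEquiv F F e) a.1 b.1

theorem sqSyl_SL_of_ker [Finite F] (e : ι ≃ κ) (h : SqSyl (detK ι F)) :
    SqSyl (SpecialLinearGroup κ F) :=
  (h.of_mulEquiv (slEquivKerDet (ι := ι) (R := F)).symm).of_mulEquiv (slReindex e)

end Reindex

section Plane

variable [Fintype F]

theorem sqSyl_ker2 (hF : Odd (Fintype.card F)) : SqSyl (detK (Fin 2) F) :=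
  SqSyl.of_mulEquiv (slEquivKerDet (ι := Fin 2) (R := F)) (Cfsg.Agent.S4624.sylow_sq_mem hF)

/-- The determinant on a subgroup. -/
def detA (A : Subgroup (GL (Fin 2) F)) : A →* Fˣ := Matrix.GeneralLinearGroup.det.comp A.subtype

theorem hQ_of_sylow (hF : Odd (Fintype.card F)) (A : Sylow 2 (GL (Fin 2) F))
    (x : (A : Subgroup (GL (Fin 2) F))) (hx : detA (A : Subgroup (GL (Fin 2) F)) x = 1) :
    x ^ 2 ∈ ⁅(detA (A : Subgroup (GL (Fin 2) F))).ker, (detA (A : Subgroup (GL (Fin 2) F))).ker⁆ := by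
  classical
  haveI : Fact (Nat.Prime 2) := ⟨Nat.prime_two⟩
  obtain ⟨Q, hQ⟩ := Cfsg.Agent.Lib.Basic.SylowUtil.exists_sylow_inf_normal A (detK (Fin 2) F)
  have hx1 : x.1 ∈ (A : Subgroup (GL (Fin 2) F)) ⊓ detK (Fin 2) F := ⟨x.2, hx⟩
  rw [← hQ] at hx1
  obtain ⟨y, hy, hyx⟩ := hx1
  have h1 := sq_mem_commutator_of_subtype (sqSyl_ker2 hF Q) y hy
  have h2 : x.1 ^ 2 ∈ ((⁅(detA (A : Subgroup (GL (Fin 2) F))).ker,
      (detA (A : Subgroup (GL (Fin 2) F))).ker⁆ : Subgroup (A : Subgroup (GL (Fin 2) F)))).map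
      (A : Subgroup (GL (Fin 2) F)).subtype := by
    rw [Subgroup.map_commutator]
    have h3 : (detA (A : Subgroup (GL (Fin 2) F))).ker.map (A : Subgroup (GL (Fin 2) F)).subtype =
        (Q : Subgroup (detK (Fin 2) F)).map (detK (Fin 2) F).subtype := by
      rw [hQ]
      ext z
      constructor
      · rintro ⟨w, hw, rfl⟩
        exact ⟨w.2, hw⟩
      · rintro ⟨h4, h5⟩
        exact ⟨⟨z, h4⟩, h5, rfl⟩
    rw [h3, ← Subgroup.map_commutator]
    exact ⟨y ^ 2, h1, by rw [map_pow]; simp [← hyx]⟩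
  obtain ⟨w, hw, hwx⟩ := h2
  have h6 : w = x ^ 2 := Subtype.ext hwx
  rwa [← h6]

end Plane

section Count

variable [Fintype F]

theorem val_GL (n : ℕ) :
    (Nat.card (GL (Fin n) F)).factorization 2 = padicValNat 2 (wP (Fintype.card F) n) := by
  rw [Matrix.card_GL_field, Nat.factorization_def _ Nat.prime_two, wP,
    Fin.prod_univ_eq_prod_range (fun i => Fintype.card F ^ n - Fintype.card F ^ i) n]

theorem card_GL_congr {ι κ : Type} [Fintype ι] [DecidableEq ι] [Fintype κ] [DecidableEq κ] (e : ι ≃ κ) :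
    Nat.card (GL ι F) = Nat.card (GL κ F) :=
  Nat.card_congr (glReindex e).toEquiv

/-- `bF F = v₂ |GL₂(F)|`. -/
noncomputable def bF (F : Type u) [Fintype F] : ℕ :=
  2 * padicValNat 2 (Fintype.card F - 1) + padicValNat 2 (Fintype.card F + 1)

theorem val_GL2 (hF : Odd (Fintype.card F)) :
    (Nat.card (GL (Fin 2) F)).factorization 2 = bF F := by
  rw [val_GL, show (2 : ℕ) = 2 * 1 by rfl, val_wP_even hF Fintype.one_lt_card]
  simp [bF]

theorem val_GL_Idx (hF : Odd (Fintype.card F)) (m : ℕ) :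
    (Nat.card (GL (Idx m) F)).factorization 2 = m * bF F + padicValNat 2 m.factorial := by
  rw [card_GL_congr finProdFinEquiv, val_GL, val_wP_even hF Fintype.one_lt_card]
  rfl

end Count

section Main

variable [Fintype F]

/-- The main reduction for `SL_{2m}`. -/
theorem sqSyl_even (hF : Odd (Fintype.card F)) (m : ℕ) (A : Sylow 2 (GL (Fin 2) F))
    (T : Sylow 2 (Perm (Fin m)))
    (hu : ∀ i j : Fin m, i ≠ j → ∀ g : (A : Subgroup (GL (Fin 2) F)),
      (cOf (m := m) (A : Subgroup (GL (Fin 2) F)) (uElt i j g, 1)) ^ 2 ∈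
        ⁅wreathSub (isWreath_cOf (m := m) (A : Subgroup (GL (Fin 2) F))) (T : Subgroup (Perm (Fin m))) ⊓
          detK (Idx m) F,
        wreathSub (isWreath_cOf (m := m) (A : Subgroup (GL (Fin 2) F))) (T : Subgroup (Perm (Fin m))) ⊓
          detK (Idx m) F⁆) :
    SqSyl (detK (Idx m) F) := by
  classical
  haveI : Fact (Nat.Prime 2) := ⟨Nat.prime_two⟩
  refine main_ker (isWreath_cOf (m := m) (A : Subgroup (GL (Fin 2) F))) (T : Subgroup (Perm (Fin m)))
    (Cfsg.Agent.S4623.result 2 m T default).1 (injective_mul _ _) ?_ (detK (Idx m) F)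
    (fun σ => det_pHom σ) ?_
  · rw [Sylow.card_eq_multiplicity A, Sylow.card_eq_multiplicity T, val_GL2 hF, val_GL_Idx hF,
      Nat.card_unique, mul_one, Nat.card_eq_fintype_card (α := Perm (Fin m)), Fintype.card_perm,
      Fintype.card_fin, Nat.factorization_def _ Nat.prime_two, ← pow_mul, ← pow_add,
      mul_comm m]
  · rintro ⟨f, ⟨⟩⟩ hn
    have hmem : ∀ f : Fin m → (A : Subgroup (GL (Fin 2) F)),
        ∏ i, detA (A : Subgroup (GL (Fin 2) F)) (f i) = 1 →
        cOf (m := m) (A : Subgroup (GL (Fin 2) F)) (f, 1) ∈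
          wreathSub (isWreath_cOf (m := m) (A : Subgroup (GL (Fin 2) F))) (T : Subgroup (Perm (Fin m))) ⊓
            detK (Idx m) F := by
      intro f hf
      refine ⟨⟨(f, 1), 1, one_mem _, by simp⟩, ?_⟩
      change Matrix.GeneralLinearGroup.det (cOf (m := m) (A : Subgroup (GL (Fin 2) F)) (f, 1)) = 1
      rw [det_cOf]
      exact hf
    refine sq_base_ker _ (detA (A : Subgroup (GL (Fin 2) F))) hmem (hQ_of_sylow hF A) hu f ?_
    have h1 : Matrix.GeneralLinearGroup.det (cOf (m := m) (A : Subgroup (GL (Fin 2) F)) (f, PUnit.unit)) = 1 := hn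
    rw [det_cOf] at h1
    exact h1

/-- The diagonal involution. -/
noncomputable def sMat (F : Type u) [Field F] : GL (Fin 2) F :=
  ⟨!![1, 0; 0, -1], !![1, 0; 0, -1], by
    ext a b
    fin_cases a <;> fin_cases b <;> simp, by
    ext a b
    fin_cases a <;> fin_cases b <;> simp⟩

theorem sMat_mul_self : sMat F * sMat F = 1 := by
  apply Units.ext
  ext a b
  change (!![1, 0; 0, -1] * !![1, 0; 0, -1] : Matrix (Fin 2) (Fin 2) F) a b = (1 : Matrix (Fin 2) (Fin 2) F) a b
  fin_cases a <;> fin_cases b <;> simp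

theorem det_sMat : ((Matrix.GeneralLinearGroup.det (sMat F) : Fˣ) : F) = -1 := by
  change (!![1, 0; 0, -1] : Matrix (Fin 2) (Fin 2) F).det = -1
  rw [Matrix.det_fin_two_of]
  ring

theorem exists_sylow_sMat (h2 : (2 : F) ≠ 0) : ∃ A : Sylow 2 (GL (Fin 2) F), sMat F ∈ A := by
  have h : IsPGroup 2 (Subgroup.zpowers (sMat F)) := by
    rintro ⟨x, k, rfl⟩
    refine ⟨1, ?_⟩
    apply Subtype.ext
    change ((sMat F) ^ k) ^ (2 ^ 1) = 1
    rw [pow_one, ← zpow_natCast, ← _root_.zpow_mul, mul_comm, _root_.zpow_mul, zpow_natCast, pow_two,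
      sMat_mul_self, _root_.one_zpow]
  obtain ⟨A, hA⟩ := h.exists_le_sylow
  exact ⟨A, hA (Subgroup.mem_zpowers _)⟩

/-- For `q ≡ 3 mod 4`, the determinants of a `2`-group are `± 1`. -/
theorem det_eq_of_sylow (hq : Fintype.card F % 4 = 3) (A : Sylow 2 (GL (Fin 2) F))
    (g : (A : Subgroup (GL (Fin 2) F))) : detA (A : Subgroup (GL (Fin 2) F)) g = 1 ∨
      ((detA (A : Subgroup (GL (Fin 2) F)) g : Fˣ) : F) = -1 := by
  classical
  set d : Fˣ := detA (A : Subgroup (GL (Fin 2) F)) g with hd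
  obtain ⟨k, hk⟩ := A.isPGroup' g
  have h1 : d ^ (2 ^ k) = 1 := by
    rw [hd, ← map_pow, hk, map_one]
  have h2 : d ^ (Fintype.card F - 1) = 1 := by
    rw [← Fintype.card_units]
    exact pow_card_eq_one
  have h3 : orderOf d ∣ 2 ^ k := orderOf_dvd_of_pow_eq_one h1
  have h4 : orderOf d ∣ Fintype.card F - 1 := orderOf_dvd_of_pow_eq_one h2
  obtain ⟨l, hl, hl2⟩ := (Nat.dvd_prime_pow Nat.prime_two).1 h3
  have h5 : l ≤ 1 := by
    by_contra hcon
    have h6 : 4 ∣ Fintype.card F - 1 := by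
      refine dvd_trans ?_ h4
      rw [hl2]
      exact pow_dvd_pow 2 (by omega : 2 ≤ l)
    omega
  have h7 : d ^ 2 = 1 := by
    rw [← orderOf_dvd_iff_pow_eq_one, hl2]
    exact pow_dvd_pow 2 (by omega)
  have h8 : ((d : F) - 1) * ((d : F) + 1) = 0 := by
    have := congrArg Units.val h7
    simp only [Units.val_pow_eq_pow_val, Units.val_one] at this
    linear_combination this
  rcases mul_eq_zero.1 h8 with h9 | h9
  · left
    exact Units.ext (sub_eq_zero.1 h9)
  · right
    linear_combination h9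

/-- For `q ≡ 3 mod 4`, all squares are in `[K, A]`. -/
theorem sq_mem_of_three (hF : Odd (Fintype.card F)) (hq : Fintype.card F % 4 = 3)
    (A : Sylow 2 (GL (Fin 2) F)) (hs : sMat F ∈ A) (g : (A : Subgroup (GL (Fin 2) F))) :
    g ^ 2 ∈ ⁅(detA (A : Subgroup (GL (Fin 2) F))).ker, (⊤ : Subgroup (A : Subgroup (GL (Fin 2) F)))⁆ := by
  have hle : (⁅(detA (A : Subgroup (GL (Fin 2) F))).ker, (detA (A : Subgroup (GL (Fin 2) F))).ker⁆ :
      Subgroup (A : Subgroup (GL (Fin 2) F))) ≤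
      ⁅(detA (A : Subgroup (GL (Fin 2) F))).ker, (⊤ : Subgroup (A : Subgroup (GL (Fin 2) F)))⁆ :=
    Subgroup.commutator_mono le_rfl le_top
  rcases det_eq_of_sylow hq A g with h | h
  · exact hle (hQ_of_sylow hF A g h)
  · let s : (A : Subgroup (GL (Fin 2) F)) := ⟨sMat F, hs⟩
    have hss : s * s = 1 := Subtype.ext sMat_mul_self
    have hsd : ((detA (A : Subgroup (GL (Fin 2) F)) s : Fˣ) : F) = -1 := det_sMat
    let b := g * s
    have hb : detA (A : Subgroup (GL (Fin 2) F)) b = 1 := by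
      apply Units.ext
      rw [map_mul, Units.val_mul, h, hsd]
      simp
    have hg : g = b * s := by
      change g = g * s * s
      rw [mul_assoc, hss, mul_one]
    have h1 : g ^ 2 = b ^ 2 * ⁅b⁻¹, s⁆ := by
      rw [hg]
      have hsinv : s⁻¹ = s := inv_eq_of_mul_eq_one_left hss
      simp only [pow_two, commutatorElement_def, hsinv]
      calc b * s * (b * s) = b * (s * b * s) := by group
        _ = b * b * (b⁻¹ * s * b * s) := by group
    rw [h1]
    refine mul_mem (hle (hQ_of_sylow hF A b hb)) ?_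
    exact Subgroup.commutator_mem_commutator (inv_mem hb) (Subgroup.mem_top _)

/-- The case `q ≡ 3 mod 4`. -/
theorem sqSyl_of_three (hF : Odd (Fintype.card F)) (hq : Fintype.card F % 4 = 3) (m : ℕ) :
    SqSyl (detK (Idx m) F) := by
  classical
  have h2 : (2 : F) ≠ 0 := by
    apply Ring.two_ne_zero
    intro h
    have h3 := FiniteField.even_card_iff_char_two.1 h
    have h4 := Nat.odd_iff.1 hF
    omega
  obtain ⟨A, hA⟩ := exists_sylow_sMat h2
  refine sqSyl_even hF m A default ?_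
  intro i j hij g
  refine hu_of_comm _ (detA (A : Subgroup (GL (Fin 2) F))) ?_ (sq_mem_of_three hF hq A hA) hij g
  intro f hf
  refine ⟨⟨(f, 1), 1, one_mem _, by simp⟩, ?_⟩
  change Matrix.GeneralLinearGroup.det (cOf (m := m) (A : Subgroup (GL (Fin 2) F)) (f, 1)) = 1
  rw [det_cOf]
  exact hf

/-- The elementary abelian regular subgroup of `S_{2^j}` gives a Sylow subgroup with all swaps. -/
theorem exists_sylow_swap (j : ℕ) : ∃ T : Sylow 2 (Perm (Fin (2 ^ j))),
    ∀ a b, a ≠ b → ∃ σ ∈ (T : Subgroup (Perm (Fin (2 ^ j)))), σ a = b ∧ σ b = a := by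
  classical
  let V := Fin j → ZMod 2
  have hcard : Fintype.card (Fin (2 ^ j)) = Fintype.card V := by
    simp [V, ZMod.card]
  let e : Fin (2 ^ j) ≃ V := Fintype.equivOfCardEq hcard
  let τ : Multiplicative V →* Perm (Fin (2 ^ j)) :=
    { toFun := fun v => (e.trans (Equiv.addRight (Multiplicative.toAdd v))).trans e.symm
      map_one' := by
        ext x
        simp
      map_mul' := by
        intro v w
        ext x
        simp [add_comm, add_left_comm, add_assoc] }
  have hv : ∀ v : V, v + v = 0 := fun v => by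
    funext i
    exact CharTwo.add_self_eq_zero (v i)
  have hE : IsPGroup 2 τ.range := by
    rintro ⟨_, v, rfl⟩
    refine ⟨1, ?_⟩
    apply Subtype.ext
    change (τ v) ^ 2 ^ 1 = 1
    rw [← map_pow]
    have : v ^ 2 ^ 1 = 1 := by
      apply Multiplicative.toAdd.injective
      change Multiplicative.toAdd (v ^ 2) = 0
      rw [toAdd_pow, two_nsmul]
      exact hv _
    rw [this, map_one]
  obtain ⟨T, hT⟩ := hE.exists_le_sylow
  refine ⟨T, fun a b _ => ⟨τ (Multiplicative.ofAdd (e a + e b)), hT ⟨_, rfl⟩, ?_, ?_⟩⟩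
  · change e.symm (e a + (e a + e b)) = b
    rw [← add_assoc, hv, zero_add, e.symm_apply_apply]
  · change e.symm (e b + (e a + e b)) = a
    rw [add_comm (e a), ← add_assoc, hv, zero_add, e.symm_apply_apply]

/-- The case `m = 2 ^ j`. -/
theorem sqSyl_of_pow (hF : Odd (Fintype.card F)) (j : ℕ) : SqSyl (detK (Idx (2 ^ j)) F) := by
  classical
  obtain ⟨T, hT⟩ := exists_sylow_swap j
  let A : Sylow 2 (GL (Fin 2) F) := default
  refine sqSyl_even hF (2 ^ j) A T ?_
  intro a b hab g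
  obtain ⟨σ, hσ, h1, h2⟩ := hT a b hab
  refine hu_of_swap _ (isWreath_cOf (m := 2 ^ j) (A : Subgroup (GL (Fin 2) F))) hab g ?_ h1 h2 ?_
  · refine ⟨⟨(uElt a b g, 1), 1, one_mem _, by simp⟩, ?_⟩
    change Matrix.GeneralLinearGroup.det (cOf (m := 2 ^ j) (A : Subgroup (GL (Fin 2) F)) (uElt a b g, 1)) = 1
    rw [det_cOf]
    exact prod_uElt (detA (A : Subgroup (GL (Fin 2) F))) hab g
  · exact ⟨⟨1, σ, hσ, by simp⟩, det_pHom σ⟩

end Main

end Cfsg.Agent.Lib.SLSyl.Even
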