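import Mathlib
import Cfsg.Agent.Lib.SLSyl.Even
import Cfsg.Agent.Lib.OrthSyl.Whole

/-!
# Sylow `2`-subgroups of `SL_{2m+1}(q)`, for `q ≡ 3 mod 4`
-/

set_option autoImplicit false
set_option linter.unusedSectionVars false

namespace Cfsg.Agent.Lib.SLSyl.Odd

open Matrix Equiv Cfsg.Agent.Lib.OrthSyl.Core Cfsg.Agent.Lib.SLSyl.Core Cfsg.Agent.Lib.SLSyl.Block
open Cfsg.Agent.Lib.SLSyl.Count Cfsg.Agent.Lib.OrthSyl.Count Cfsg.Agent.Lib.Linalg.Basic
open Cfsg.Agent.Lib.SLSyl.Even
open scoped MatrixGroups commutatorElement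

universe u

variable {F : Type u} [Field F] {κ : Type} [Fintype κ] [DecidableEq κ]

/-- The embedding `g ↦ diag(g, (det g)⁻¹)`. -/
noncomputable def extHom (κ : Type) [Fintype κ] [DecidableEq κ] (F : Type u) [Field F] :
    GL κ F →* GL (κ ⊕ Unit) F where
  toFun g := ⟨fromBlocks (g : Matrix κ κ F) 0 0 (diagonal fun _ => (((Matrix.GeneralLinearGroup.det g)⁻¹ : Fˣ) : F)),
    fromBlocks ((g⁻¹ : GL κ F) : Matrix κ κ F) 0 0 (diagonal fun _ => ((Matrix.GeneralLinearGroup.det g : Fˣ) : F)), by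
      have hd : (g : Matrix κ κ F).det ≠ 0 := Matrix.GeneralLinearGroup.det_ne_zero g
      rw [fromBlocks_multiply, ← fromBlocks_one]
      simp [hd], by
      have hd : (g : Matrix κ κ F).det ≠ 0 := Matrix.GeneralLinearGroup.det_ne_zero g
      rw [fromBlocks_multiply, ← fromBlocks_one]
      simp [hd]⟩
  map_one' := by
    apply Units.ext
    change fromBlocks _ _ _ _ = 1
    rw [← fromBlocks_one]
    simp
  map_mul' a b := by
    apply Units.ext
    change fromBlocks _ _ _ _ = fromBlocks _ _ _ _ * fromBlocks _ _ _ _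
    rw [fromBlocks_multiply]
    simp [mul_comm]

theorem extHom_coe (g : GL κ F) : ((extHom κ F g : GL (κ ⊕ Unit) F) : Matrix (κ ⊕ Unit) (κ ⊕ Unit) F) =
    fromBlocks (g : Matrix κ κ F) 0 0 (diagonal fun _ => (((Matrix.GeneralLinearGroup.det g)⁻¹ : Fˣ) : F)) := rfl

theorem det_extHom (g : GL κ F) : Matrix.GeneralLinearGroup.det (extHom κ F g) = 1 := by
  apply Units.ext
  change ((extHom κ F g : GL (κ ⊕ Unit) F) : Matrix (κ ⊕ Unit) (κ ⊕ Unit) F).det = 1
  rw [extHom_coe, det_fromBlocks_zero₂₁, det_diagonal]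
  have hd : (g : Matrix κ κ F).det ≠ 0 := Matrix.GeneralLinearGroup.det_ne_zero g
  simp [hd]

theorem extHom_injective : Function.Injective (extHom κ F) := by
  intro a b h
  apply Units.ext
  have h1 := congrArg (fun g : GL (κ ⊕ Unit) F => (g : Matrix (κ ⊕ Unit) (κ ⊕ Unit) F)) h
  simp only [extHom_coe] at h1
  exact (fromBlocks_inj.1 h1).1

/-- The embedding into the kernel of the determinant. -/
noncomputable def extK (κ : Type) [Fintype κ] [DecidableEq κ] (F : Type u) [Field F] :
    GL κ F →* detK (κ ⊕ Unit) F :=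
  (extHom κ F).codRestrict _ det_extHom

theorem extK_injective : Function.Injective (extK κ F) := by
  intro a b h
  exact extHom_injective (congrArg Subtype.val h)

variable [Fintype F]

theorem val_detK (hF : Odd (Fintype.card F)) (m : ℕ) :
    (Nat.card (detK (Idx m ⊕ Unit) F)).factorization 2 = m * bF F + padicValNat 2 m.factorial := by
  classical
  haveI : Fact (Nat.Prime 2) := ⟨Nat.prime_two⟩
  have hq1 : 1 < Fintype.card F := Fintype.one_lt_card
  have hcard : Fintype.card (Idx m ⊕ Unit) = 2 * m + 1 := by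
    simp
  have h1 : Nat.card (GL (Idx m ⊕ Unit) F) = Nat.card (GL (Fin (2 * m + 1)) F) :=
    card_GL_congr (Fintype.equivFinOfCardEq hcard)
  have h2 := card_GL_eq_mul_card_SL (F := F) (ι := Idx m ⊕ Unit)
  rw [← Nat.card_congr (slEquivKerDet (ι := Idx m ⊕ Unit) (R := F)).toEquiv,
    Nat.factorization_def _ Nat.prime_two]
  have h3 := val_GL (F := F) (2 * m + 1)
  rw [← h1, h2, Nat.factorization_def _ Nat.prime_two, Nat.card_eq_fintype_card (α := F),
    padicValNat.mul (by omega) (Nat.card_pos.ne'), val_wP_odd hF hq1] at h3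
  change _ = m * (2 * padicValNat 2 (Fintype.card F - 1) + padicValNat 2 (Fintype.card F + 1)) +
    padicValNat 2 m.factorial
  have h4 : Nat.card (detK (Idx m ⊕ Unit) F) = Nat.card (SpecialLinearGroup (Idx m ⊕ Unit) F) :=
    Nat.card_congr (slEquivKerDet (ι := Idx m ⊕ Unit) (R := F)).toEquiv.symm
  omega

/-- The case `q ≡ 3 mod 4`, odd degree. -/
theorem sqSyl_odd (hF : Odd (Fintype.card F)) (hq : Fintype.card F % 4 = 3) (m : ℕ) :
    SqSyl (detK (Idx m ⊕ Unit) F) := by
  classical
  haveI : Fact (Nat.Prime 2) := ⟨Nat.prime_two⟩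
  have h2 : (2 : F) ≠ 0 := by
    apply Ring.two_ne_zero
    intro h
    have h3 := FiniteField.even_card_iff_char_two.1 h
    have h4 := Nat.odd_iff.1 hF
    omega
  obtain ⟨A, hA⟩ := exists_sylow_sMat h2
  let T : Sylow 2 (Perm (Fin m)) := default
  let c' := (extK (Idx m) F).comp (cOf (m := m) (A : Subgroup (GL (Fin 2) F)))
  let π' := (extK (Idx m) F).comp (pHom m F)
  have hw : IsWreath c' π' := by
    intro σ n
    have h := isWreath_cOf (m := m) (A : Subgroup (GL (Fin 2) F)) σ n
    change extK (Idx m) F (pHom m F σ) * extK (Idx m) F (cOf (A : Subgroup (GL (Fin 2) F)) n) *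
      (extK (Idx m) F (pHom m F σ))⁻¹ = extK (Idx m) F (cOf (A : Subgroup (GL (Fin 2) F)) _)
    rw [← h, map_mul, map_mul, map_inv]
  have hinj : Function.Injective fun p : ((Fin m → (A : Subgroup (GL (Fin 2) F))) × PUnit.{1}) ×
      (T : Subgroup (Perm (Fin m))) => c' p.1 * π' p.2 := by
    intro a b hab
    apply injective_mul (m := m) (A : Subgroup (GL (Fin 2) F)) (T : Subgroup (Perm (Fin m)))
    apply extK_injective (κ := Idx m) (F := F)
    change extK (Idx m) F _ = extK (Idx m) F _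
    simp only [map_mul]
    exact hab
  intro P x
  refine Cfsg.Agent.Lib.OrthSyl.Whole.main_whole hw (T : Subgroup (Perm (Fin m)))
    (Cfsg.Agent.S4623.result 2 m T default).1 hinj ?_ ?_ (fun _ => rfl) P x
  · rw [Sylow.card_eq_multiplicity A, Sylow.card_eq_multiplicity T, val_GL2 hF, val_detK hF,
      Nat.card_unique, mul_one, Nat.card_eq_fintype_card (α := Perm (Fin m)), Fintype.card_perm,
      Fintype.card_fin, Nat.factorization_def _ Nat.prime_two, ← pow_mul, ← pow_add, mul_comm m]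
  · intro g
    have h3 := sq_mem_of_three hF hq A hA g
    exact Subgroup.commutator_mono le_top le_rfl h3

end Cfsg.Agent.Lib.SLSyl.Odd
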